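import Mathlib

/-! Integer vectors: norm two vectors and a coherence lemma. -/

set_option autoImplicit false

namespace Cfsg.Agent.Lib.Helper2.AbVec

variable {ι : Type*} [Fintype ι] [DecidableEq ι]

theorem sum_ind_mul (x x' : ι) :
    ∑ χ : ι, (if χ = x then (1 : ℤ) else 0) * (if χ = x' then (1 : ℤ) else 0) =
      if x = x' then 1 else 0 := by
  simp only [ite_mul, one_mul, zero_mul]
  rw [Finset.sum_ite_eq' Finset.univ x]
  simp

theorem sum_ind_mul' (x : ι) (f : ι → ℤ) :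
    ∑ χ : ι, (if χ = x then (1 : ℤ) else 0) * f χ = f x := by
  simp only [ite_mul, one_mul, zero_mul]
  rw [Finset.sum_ite_eq' Finset.univ x]
  simp

theorem eq_of_norm_sub_zero (u w : ι → ℤ) (h : ∑ χ, (u χ - w χ) ^ 2 = 0) : u = w := by
  funext χ
  have h1 := (Finset.sum_eq_zero_iff_of_nonneg (fun χ _ => sq_nonneg (u χ - w χ))).mp h χ
    (Finset.mem_univ χ)
  have h2 : u χ - w χ = 0 := by simpa using h1
  linarith

/-- An integer vector of norm `2` orthogonal to a positive vector is `e_x - e_y`. -/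
theorem exists_pm_of_norm_two (τ deg : ι → ℤ) (hdeg : ∀ χ, 0 < deg χ)
    (h2 : ∑ χ, τ χ ^ 2 = 2) (h0 : ∑ χ, τ χ * deg χ = 0) :
    ∃ x y : ι, x ≠ y ∧ ∀ χ, τ χ = (if χ = x then 1 else 0) - (if χ = y then 1 else 0) := by
  have hb : ∀ χ, τ χ = -1 ∨ τ χ = 0 ∨ τ χ = 1 := by
    intro χ
    have h1 : τ χ ^ 2 ≤ ∑ χ, τ χ ^ 2 :=
      Finset.single_le_sum (f := fun χ => τ χ ^ 2) (fun χ _ => sq_nonneg (τ χ)) (Finset.mem_univ χ)
    rw [h2] at h1
    have h3 : -2 < τ χ ∧ τ χ < 2 := by constructor <;> nlinarith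
    omega
  set S := Finset.univ.filter (fun χ => τ χ ≠ 0) with hS
  have hcard : S.card = 2 := by
    have h1 : ∑ χ, τ χ ^ 2 = ∑ χ ∈ S, (1 : ℤ) := by
      rw [hS, Finset.sum_filter]
      apply Finset.sum_congr rfl
      intro χ _
      rcases hb χ with h | h | h <;> simp [h]
    rw [h2, Finset.sum_const, nsmul_eq_mul, mul_one] at h1
    exact_mod_cast h1.symm
  obtain ⟨x, y, hxy, hSxy⟩ := Finset.card_eq_two.mp hcard
  have hmem : ∀ χ, τ χ ≠ 0 ↔ (χ = x ∨ χ = y) := by
    intro χ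
    have : χ ∈ S ↔ χ ∈ ({x, y} : Finset ι) := by rw [hSxy]
    rw [hS, Finset.mem_filter, Finset.mem_insert, Finset.mem_singleton] at this
    simpa using this
  have hsum : ∑ χ, τ χ * deg χ = τ x * deg x + τ y * deg y := by
    have h1 : ∑ χ, τ χ * deg χ = ∑ χ ∈ ({x, y} : Finset ι), τ χ * deg χ := by
      symm
      apply Finset.sum_subset (Finset.subset_univ _)
      intro χ _ hχ
      rw [Finset.mem_insert, Finset.mem_singleton] at hχ
      have : τ χ = 0 := by
        by_contra hne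
        exact hχ ((hmem χ).mp hne)
      rw [this, zero_mul]
    rw [h1, Finset.sum_pair hxy]
  rw [hsum] at h0
  have hx0 : τ x ≠ 0 := (hmem x).mpr (Or.inl rfl)
  have hy0 : τ y ≠ 0 := (hmem y).mpr (Or.inr rfl)
  have hdx := hdeg x
  have hdy := hdeg y
  have key : ∀ (a b : ι), a ≠ b → (∀ χ, τ χ ≠ 0 ↔ (χ = a ∨ χ = b)) → τ a = 1 → τ b = -1 →
      ∀ χ, τ χ = (if χ = a then 1 else 0) - (if χ = b then 1 else 0) := by
    intro a b hab hm ha hb' χ
    by_cases h1 : χ = a
    · subst h1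
      rw [if_pos rfl, if_neg hab, ha]; norm_num
    · by_cases h2 : χ = b
      · subst h2
        rw [if_neg h1, if_pos rfl, hb']; norm_num
      · rw [if_neg h1, if_neg h2]
        by_contra hne
        rcases (hm χ).mp hne with h | h
        · exact h1 h
        · exact h2 h
  rcases hb x with hx | hx | hx
  · rcases hb y with hy | hy | hy
    · exfalso; rw [hx, hy] at h0; linarith
    · exact absurd hy hy0
    · refine ⟨y, x, hxy.symm, key y x hxy.symm (fun χ => ?_) hy hx⟩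
      rw [hmem χ]; exact or_comm
  · exact absurd hx hx0
  · rcases hb y with hy | hy | hy
    · exact ⟨x, y, hxy, key x y hxy hmem hx hy⟩
    · exact absurd hy hy0
    · exfalso; rw [hx, hy] at h0; linarith

theorem inner_pm (x y x' y' : ι) :
    ∑ χ : ι, ((if χ = x then (1 : ℤ) else 0) - (if χ = y then 1 else 0)) *
      ((if χ = x' then (1 : ℤ) else 0) - (if χ = y' then 1 else 0)) =
      (if x = x' then 1 else 0) + (if y = y' then 1 else 0) - (if x = y' then 1 else 0) -
        (if y = x' then 1 else 0) := by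
  have : ∀ χ : ι, ((if χ = x then (1 : ℤ) else 0) - (if χ = y then 1 else 0)) *
      ((if χ = x' then (1 : ℤ) else 0) - (if χ = y' then 1 else 0)) =
      (if χ = x then (1 : ℤ) else 0) * (if χ = x' then (1 : ℤ) else 0) +
      (if χ = y then (1 : ℤ) else 0) * (if χ = y' then (1 : ℤ) else 0) -
      (if χ = x then (1 : ℤ) else 0) * (if χ = y' then (1 : ℤ) else 0) -
      (if χ = y then (1 : ℤ) else 0) * (if χ = x' then (1 : ℤ) else 0) := fun χ => by ring
  simp only [this, Finset.sum_sub_distrib, Finset.sum_add_distrib, sum_ind_mul]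

/-- two equivalence-like relations covering all pairs: one of them is total -/
theorem total_of_cover {J α β : Type*} (x : J → α) (y : J → β)
    (h : ∀ j k, x j = x k ∨ y j = y k) : (∀ j k, y j = y k) ∨ (∀ j k, x j = x k) := by
  by_cases hx : ∀ j k, x j = x k
  · exact Or.inr hx
  · left
    push Not at hx
    obtain ⟨j, k, hjk⟩ := hx
    have hyjk : y j = y k := (h j k).resolve_left hjk
    have key : ∀ l, y l = y j := by
      intro l
      by_contra hl
      have h1 : x l = x j := (h l j).resolve_right hl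
      have h2 : x l = x k := (h l k).resolve_right (by rw [← hyjk]; exact hl)
      exact hjk (h1.symm.trans h2)
    intro a b
    rw [key a, key b]

/-- consequences of a representation `v j = f + δ e_{ζ j}` -/
theorem coherence_aux {J : Type*} (v : J → ι → ℤ) (m : ℤ)
    (hGs : ∀ j, ∑ χ, v j χ * v j χ = m + 1) (j₀ : J)
    (δ : ℤ) (hδ : δ = 1 ∨ δ = -1) (ζ : J → ι) (f : ι → ℤ)
    (hrep : ∀ j χ, v j χ = f χ + (if χ = ζ j then δ else 0)) :
    (∀ j, f (ζ j) = f (ζ j₀)) ∧ (∀ j k, ζ j = ζ k ↔ ∑ χ, v j χ * v k χ = m + 1) := by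
  have hδ0 : δ ≠ 0 := by rcases hδ with h | h <;> rw [h] <;> norm_num
  have hδ2 : δ * δ = 1 := by rcases hδ with h | h <;> rw [h] <;> norm_num
  have hnorm : ∀ j, ∑ χ, v j χ * v j χ = ∑ χ, f χ * f χ + 2 * δ * f (ζ j) + 1 := by
    intro j
    have h1 : ∀ χ, v j χ * v j χ = f χ * f χ + 2 * δ * ((if χ = ζ j then (1 : ℤ) else 0) * f χ) +
        (if χ = ζ j then (1 : ℤ) else 0) * (if χ = ζ j then (1 : ℤ) else 0) := by
      intro χ
      rw [hrep j χ]
      by_cases h : χ = ζ j
      · simp only [if_pos h]; linear_combination hδ2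
      · simp only [if_neg h]; ring
    simp only [h1, Finset.sum_add_distrib, ← Finset.mul_sum, sum_ind_mul', if_true]
  constructor
  · intro j
    have h1 := hnorm j
    have h2 := hnorm j₀
    rw [hGs] at h1 h2
    have h3 : δ * (f (ζ j) - f (ζ j₀)) = 0 := by linarith
    rcases mul_eq_zero.mp h3 with h | h
    · exact absurd h hδ0
    · linarith
  · intro j k
    constructor
    · intro h
      have : v j = v k := by
        funext χ
        rw [hrep j χ, hrep k χ, h]
      rw [this]; exact hGs k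
    · intro h
      have hvv : v j = v k := by
        apply eq_of_norm_sub_zero
        have h1 : ∀ χ, (v j χ - v k χ) ^ 2 = v j χ * v j χ + v k χ * v k χ - 2 * (v j χ * v k χ) :=
          fun χ => by ring
        simp only [h1, Finset.sum_sub_distrib, Finset.sum_add_distrib, ← Finset.mul_sum, hGs, h]
        ring
      have h1 := congrFun hvv (ζ j)
      rw [hrep j, hrep k, if_pos rfl] at h1
      by_contra hne
      rw [if_neg hne] at h1
      apply hδ0
      linarith

/-- **Coherence**: vectors with Gram matrix `m + [j ~ k]` orthogonal to a positive vector. -/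
theorem coherence {J : Type*} (v : J → ι → ℤ) (deg : ι → ℤ) (m : ℤ)
    (hdeg : ∀ χ, 0 < deg χ) (horth : ∀ j, ∑ χ, v j χ * deg χ = 0)
    (hG : ∀ j k, ∑ χ, v j χ * v k χ = m + 1 ∨ ∑ χ, v j χ * v k χ = m)
    (hGs : ∀ j, ∑ χ, v j χ * v j χ = m + 1)
    (j₀ j₁ : J) (h01 : ∑ χ, v j₁ χ * v j₀ χ = m) :
    ∃ (δ : ℤ) (ζ : J → ι) (f : ι → ℤ) (d : ℤ), (δ = 1 ∨ δ = -1) ∧
      (∀ j χ, v j χ = f χ + (if χ = ζ j then δ else 0)) ∧ (∀ j, f (ζ j) = d) ∧
      (∀ j k, ζ j = ζ k ↔ ∑ χ, v j χ * v k χ = m + 1) := by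
  classical
  have hcomm : ∀ j k, ∑ χ, v j χ * v k χ = ∑ χ, v k χ * v j χ :=
    fun j k => Finset.sum_congr rfl (fun χ _ => mul_comm _ _)
  have heq : ∀ j k, ∑ χ, v j χ * v k χ = m + 1 → v j = v k := by
    intro j k h
    apply eq_of_norm_sub_zero
    have h1 : ∀ χ, (v j χ - v k χ) ^ 2 = v j χ * v j χ + v k χ * v k χ - 2 * (v j χ * v k χ) :=
      fun χ => by ring
    simp only [h1, Finset.sum_sub_distrib, Finset.sum_add_distrib, ← Finset.mul_sum, hGs, h]
    ring
  -- the differences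
  have hτ : ∀ j : {j : J // ∑ χ, v j χ * v j₀ χ = m}, ∃ x y : ι, x ≠ y ∧
      ∀ χ, v j.1 χ - v j₀ χ = (if χ = x then 1 else 0) - (if χ = y then 1 else 0) := by
    intro j
    apply exists_pm_of_norm_two (fun χ => v j.1 χ - v j₀ χ) deg hdeg
    · have h1 : ∀ χ, (v j.1 χ - v j₀ χ) ^ 2 =
          v j.1 χ * v j.1 χ + v j₀ χ * v j₀ χ - 2 * (v j.1 χ * v j₀ χ) := fun χ => by ring
      simp only [h1, Finset.sum_sub_distrib, Finset.sum_add_distrib, ← Finset.mul_sum, hGs, j.2]
      ring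
    · simp only [sub_mul, Finset.sum_sub_distrib, horth]
      ring
  choose x y hxy hτ' using hτ
  have hcover : ∀ j k, x j = x k ∨ y j = y k := by
    intro j k
    have h1 : ∑ χ, (v j.1 χ - v j₀ χ) * (v k.1 χ - v j₀ χ) = ∑ χ, v j.1 χ * v k.1 χ - m + 1 := by
      have h2 : ∀ χ, (v j.1 χ - v j₀ χ) * (v k.1 χ - v j₀ χ) =
          v j.1 χ * v k.1 χ - v j.1 χ * v j₀ χ - v k.1 χ * v j₀ χ + v j₀ χ * v j₀ χ :=
        fun χ => by ring
      simp only [h2, Finset.sum_sub_distrib, Finset.sum_add_distrib, hGs, j.2, k.2]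
      ring
    simp only [hτ' j, hτ' k] at h1
    rw [inner_pm] at h1
    by_contra hcon
    push Not at hcon
    rw [if_neg hcon.1, if_neg hcon.2] at h1
    have h3 : (0 : ℤ) ≤ (if x j = y k then (1 : ℤ) else 0) := by split_ifs <;> norm_num
    have h4 : (0 : ℤ) ≤ (if y j = x k then (1 : ℤ) else 0) := by split_ifs <;> norm_num
    rcases hG j.1 k.1 with h | h <;> rw [h] at h1 <;> linarith
  have hnot : ∀ j, ¬ (∑ χ, v j χ * v j₀ χ = m) → v j = v j₀ := by
    intro j hj
    exact heq j j₀ ((hG j j₀).resolve_right hj)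
  rcases total_of_cover x y hcover with hy | hx
  · -- common negative part
    set y₀ := y ⟨j₁, h01⟩ with hy₀
    set f : ι → ℤ := fun χ => v j₀ χ - (if χ = y₀ then 1 else 0) with hf
    set ζ : J → ι := fun j => if h : ∑ χ, v j χ * v j₀ χ = m then x ⟨j, h⟩ else y₀ with hζ
    have hrep : ∀ j χ, v j χ = f χ + (if χ = ζ j then (1 : ℤ) else 0) := by
      intro j χ
      by_cases h : ∑ χ, v j χ * v j₀ χ = m
      · have h1 := hτ' ⟨j, h⟩ χ
        rw [hy ⟨j, h⟩ ⟨j₁, h01⟩] at h1
        simp only [hf, hζ, dif_pos h]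
        simp only at h1
        linarith
      · simp only [hf, hζ, dif_neg h]
        rw [hnot j h]; ring
    obtain ⟨h1, h2⟩ := coherence_aux v m hGs j₀ 1 (Or.inl rfl) ζ f hrep
    exact ⟨1, ζ, f, f (ζ j₀), Or.inl rfl, hrep, h1, h2⟩
  · set x₀ := x ⟨j₁, h01⟩ with hx₀
    set f : ι → ℤ := fun χ => v j₀ χ + (if χ = x₀ then 1 else 0) with hf
    set ζ : J → ι := fun j => if h : ∑ χ, v j χ * v j₀ χ = m then y ⟨j, h⟩ else x₀ with hζ
    have hrep : ∀ j χ, v j χ = f χ + (if χ = ζ j then (-1 : ℤ) else 0) := by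
      intro j χ
      by_cases h : ∑ χ, v j χ * v j₀ χ = m
      · have h1 := hτ' ⟨j, h⟩ χ
        rw [hx ⟨j, h⟩ ⟨j₁, h01⟩] at h1
        simp only [hf, hζ, dif_pos h]
        simp only at h1
        by_cases h2 : χ = y ⟨j, h⟩
        · rw [if_pos h2] at h1 ⊢; linarith
        · rw [if_neg h2] at h1 ⊢; linarith
      · simp only [hf, hζ, dif_neg h]
        rw [hnot j h]
        by_cases h2 : χ = x₀
        · simp only [if_pos h2]; ring
        · simp only [if_neg h2]; ring
    obtain ⟨h1, h2⟩ := coherence_aux v m hGs j₀ (-1) (Or.inr rfl) ζ f hrep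
    exact ⟨-1, ζ, f, f (ζ j₀), Or.inr rfl, hrep, h1, h2⟩

end Cfsg.Agent.Lib.Helper2.AbVec
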