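import Mathlib
import Cfsg.Agent.Lib.Helper2.AbDual
import Cfsg.Agent.Lib.Helper2.AbVec

/-! Columns of a block on an abelian group with a semiregular cyclic group of automorphisms. -/

set_option autoImplicit false

namespace Cfsg.Agent.Lib.Helper2.AbCol

open scoped ComplexConjugate Classical
open Cfsg.Agent.Lib.Helper2.AbDual

/-- the data: `c χ y` are the values of the members `χ` of the block on the abelian group `A` -/
structure ColData (A : Type*) [Group A] [Fintype A] (ι : Type*) [Fintype ι] where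
  hc : ∀ a b : A, a * b = b * a
  σ : MulAut A
  m : ℕ
  hfree : ∀ i, 0 < i → i < m → ∀ y, (σ ^ i) y = y → y = 1
  c : ι → A → ℂ
  hint : ∀ χ (ψ : A →* ℂˣ), ∃ z : ℤ,
    (Fintype.card A : ℂ)⁻¹ * ∑ y, c χ y * conj ((ψ y : ℂˣ) : ℂ) = z
  hcol : ∀ y y', y ≠ 1 → y' ≠ 1 → ∑ χ, c χ y * conj (c χ y') =
    if ∃ i, i < m ∧ y' = (σ ^ i) y then (Fintype.card A : ℂ) else 0

variable {A : Type*} [Group A] [Fintype A] {ι : Type*} [Fintype ι] (D : ColData A ι)

namespace ColData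

/-- multiplicities -/
noncomputable def az (ψ : A →* ℂˣ) (χ : ι) : ℤ := (D.hint χ ψ).choose

theorem az_spec (ψ : A →* ℂˣ) (χ : ι) :
    (D.az ψ χ : ℂ) = (Fintype.card A : ℂ)⁻¹ * ∑ y, D.c χ y * conj ((ψ y : ℂˣ) : ℂ) :=
  (D.hint χ ψ).choose_spec.symm

noncomputable def mz (ψ : A →* ℂˣ) (χ : ι) : ℤ := D.az ψ χ - D.az 1 χ

theorem mz_spec (ψ : A →* ℂˣ) (χ : ι) :
    (D.mz ψ χ : ℂ) = (Fintype.card A : ℂ)⁻¹ * ∑ y, D.c χ y * (conj ((ψ y : ℂˣ) : ℂ) - 1) := by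
  unfold mz
  push_cast
  rw [az_spec, az_spec, ← mul_sub, ← Finset.sum_sub_distrib]
  congr 1
  apply Finset.sum_congr rfl
  intro y _
  simp only [MonoidHom.one_apply, Units.val_one, map_one]
  ring

theorem mz_spec' (ψ : A →* ℂˣ) (χ : ι) :
    (D.mz ψ χ : ℂ) = (Fintype.card A : ℂ)⁻¹ * ∑ y, conj (D.c χ y) * (((ψ y : ℂˣ) : ℂ) - 1) := by
  have h1 : (D.mz ψ χ : ℂ) = conj (D.mz ψ χ : ℂ) := by rw [map_intCast]
  rw [h1, mz_spec, map_mul, map_inv₀, map_natCast, map_sum]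
  congr 1
  apply Finset.sum_congr rfl
  intro y _
  rw [map_mul, map_sub, Complex.conj_conj, map_one]

theorem mz_one (χ : ι) : D.mz 1 χ = 0 := by
  unfold mz; ring

theorem card_ne_zero : (Fintype.card A : ℂ) ≠ 0 := by
  exact_mod_cast (Fintype.card_pos (α := A)).ne'

/-- the action on the dual -/
def act (i : ℕ) (ψ : A →* ℂˣ) : A →* ℂˣ := ψ.comp (D.σ ^ i : MulAut A).toMonoidHom

theorem act_apply (i : ℕ) (ψ : A →* ℂˣ) (y : A) : D.act i ψ y = ψ ((D.σ ^ i) y) := rfl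

theorem act_ne_one (i : ℕ) {ψ : A →* ℂˣ} (hψ : ψ ≠ 1) : D.act i ψ ≠ 1 := by
  intro h
  apply hψ
  ext y
  have := congrArg (fun f : A →* ℂˣ => f ((D.σ ^ i)⁻¹ y)) h
  simp only [act_apply, MonoidHom.one_apply] at this
  rw [MulAut.apply_inv_self] at this
  rw [this, MonoidHom.one_apply]

theorem pow_inj {y : A} (hy : y ≠ 1) {i j : ℕ} (hi : i < D.m) (hj : j < D.m)
    (h : (D.σ ^ i) y = (D.σ ^ j) y) : i = j := by
  wlog hij : i ≤ j generalizing i j
  · exact (this hj hi h.symm (by omega)).symm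
  by_contra hne
  apply hy
  apply D.hfree (j - i) (by omega) (by omega)
  have h1 : D.σ ^ j = D.σ ^ i * D.σ ^ (j - i) := by rw [← pow_add]; congr 1; omega
  rw [h1, MulAut.mul_apply] at h
  exact ((D.σ ^ i).injective h).symm

theorem act_free {i : ℕ} (hi : 0 < i) (hi' : i < D.m) {ψ : A →* ℂˣ} (h : D.act i ψ = ψ) :
    ψ = 1 := by
  have hinj : Function.Injective (fun y : A => (D.σ ^ i) y * y⁻¹) := by
    intro y y' hyy
    simp only at hyy
    have h1 : (D.σ ^ i) (y'⁻¹ * y) = y'⁻¹ * y := by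
      rw [map_mul, map_inv]
      have h2 : (D.σ ^ i) y = (D.σ ^ i) y' * y'⁻¹ * y := by
        rw [← hyy]; group
      rw [h2]; group
    have h3 := D.hfree i hi hi' _ h1
    exact (inv_mul_eq_one.mp h3).symm
  have hsur := Finite.surjective_of_injective hinj
  ext z
  obtain ⟨y, rfl⟩ := hsur z
  have h1 := congrArg (fun f : A →* ℂˣ => f y) h
  simp only [act_apply] at h1
  rw [map_mul, map_inv, h1, mul_inv_cancel, MonoidHom.one_apply]

theorem act_inj {ψ : A →* ℂˣ} (hψ : ψ ≠ 1) {i j : ℕ} (hi : i < D.m) (hj : j < D.m)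
    (h : D.act i ψ = D.act j ψ) : i = j := by
  wlog hij : i ≤ j generalizing i j
  · exact (this hj hi h.symm (by omega)).symm
  by_contra hne
  apply hψ
  apply D.act_free (i := j - i) (by omega) (by omega)
  ext y
  have h1 := congrArg (fun f : A →* ℂˣ => f ((D.σ ^ i)⁻¹ y)) h
  simp only [act_apply] at h1
  rw [MulAut.apply_inv_self] at h1
  rw [act_apply, h1]
  have h2 : D.σ ^ j = D.σ ^ (j - i) * D.σ ^ i := by rw [← pow_add]; congr 1; omega
  rw [h2, MulAut.mul_apply, MulAut.apply_inv_self]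

theorem orbit_sum {y : A} (hy : y ≠ 1) (f : A → ℂ) :
    ∑ y', (if ∃ i, i < D.m ∧ y' = (D.σ ^ i) y then f y' else 0) =
      ∑ i ∈ Finset.range D.m, f ((D.σ ^ i) y) := by
  rw [← Finset.sum_filter]
  have h1 : Finset.univ.filter (fun y' => ∃ i, i < D.m ∧ y' = (D.σ ^ i) y) =
      (Finset.range D.m).image (fun i => (D.σ ^ i) y) := by
    ext y'
    simp only [Finset.mem_filter, Finset.mem_univ, true_and, Finset.mem_image, Finset.mem_range]
    constructor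
    · rintro ⟨i, hi, rfl⟩; exact ⟨i, hi, rfl⟩
    · rintro ⟨i, hi, rfl⟩; exact ⟨i, hi, rfl⟩
  rw [h1, Finset.sum_image]
  intro i hi j hj h
  exact D.pow_inj hy (Finset.mem_range.mp hi) (Finset.mem_range.mp hj) h

theorem sum_u_w {ψ ψ' : A →* ℂˣ} (hψ : ψ ≠ 1) (hψ' : ψ' ≠ 1) :
    ∑ y, (conj ((ψ y : ℂˣ) : ℂ) - 1) * (((ψ' y : ℂˣ) : ℂ) - 1) =
      (Fintype.card A : ℂ) * ((if ψ' = ψ then 1 else 0) + 1) := by
  have h1 : ∀ y, (conj ((ψ y : ℂˣ) : ℂ) - 1) * (((ψ' y : ℂˣ) : ℂ) - 1) =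
      ((ψ' y : ℂˣ) : ℂ) * conj ((ψ y : ℂˣ) : ℂ) - conj ((ψ y : ℂˣ) : ℂ) - ((ψ' y : ℂˣ) : ℂ) + 1 :=
    fun y => by ring
  simp only [h1, Finset.sum_add_distrib, Finset.sum_sub_distrib, sum_mul_conj, ← map_sum,
    sum_apply hψ, sum_apply hψ', map_zero, Finset.sum_const, Finset.card_univ, nsmul_eq_mul]
  split_ifs <;> ring

/-- the Gram matrix -/
theorem gram {ψ ψ' : A →* ℂˣ} (hψ : ψ ≠ 1) (hψ' : ψ' ≠ 1) :
    ∑ χ, D.mz ψ χ * D.mz ψ' χ = D.m + (if ∃ i, i < D.m ∧ D.act i ψ' = ψ then 1 else 0) := by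
  have hn := card_ne_zero (A := A)
  set n : ℂ := (Fintype.card A : ℂ) with hndef
  set u : A → ℂ := fun y => conj ((ψ y : ℂˣ) : ℂ) - 1 with hu
  set w : A → ℂ := fun y => ((ψ' y : ℂˣ) : ℂ) - 1 with hw
  have hu1 : u 1 = 0 := by simp [hu]
  have hw1 : w 1 = 0 := by simp [hw]
  have e1 : ∀ χ, (D.mz ψ χ : ℂ) * (D.mz ψ' χ : ℂ) =
      n⁻¹ * n⁻¹ * ∑ y, ∑ y', (u y * w y') * (D.c χ y * conj (D.c χ y')) := by
    intro χ
    rw [mz_spec, mz_spec', mul_mul_mul_comm, Finset.sum_mul_sum]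
    congr 1
    apply Finset.sum_congr rfl
    intro y _
    apply Finset.sum_congr rfl
    intro y' _
    simp only [hu, hw]; ring
  have e2 : ∑ χ, (D.mz ψ χ : ℂ) * (D.mz ψ' χ : ℂ) =
      n⁻¹ * n⁻¹ * ∑ y, ∑ y', (u y * w y') * ∑ χ, D.c χ y * conj (D.c χ y') := by
    simp only [e1]
    rw [← Finset.mul_sum, Finset.sum_comm]
    congr 1
    apply Finset.sum_congr rfl
    intro y _
    rw [Finset.sum_comm]
    apply Finset.sum_congr rfl
    intro y' _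
    rw [Finset.mul_sum]
  have e3 : ∀ y, ∑ y', (u y * w y') * ∑ χ, D.c χ y * conj (D.c χ y') =
      n * ∑ i ∈ Finset.range D.m, u y * w ((D.σ ^ i) y) := by
    intro y
    by_cases hy : y = 1
    · rw [hy, hu1]; simp
    · rw [← D.orbit_sum hy (fun y' => u y * w y'), Finset.mul_sum]
      apply Finset.sum_congr rfl
      intro y' _
      by_cases hy' : y' = 1
      · rw [hy', hw1]; simp
      · rw [D.hcol y y' hy hy']
        split_ifs <;> ring
  have e4 : ∀ i, ∑ y, u y * w ((D.σ ^ i) y) = n * ((if D.act i ψ' = ψ then 1 else 0) + 1) := by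
    intro i
    have h := sum_u_w hψ (D.act_ne_one i hψ')
    simp only [act_apply] at h
    simp only [hu, hw]
    exact h
  have e5 : ∑ χ, (D.mz ψ χ : ℂ) * (D.mz ψ' χ : ℂ) =
      ∑ i ∈ Finset.range D.m, ((if D.act i ψ' = ψ then (1 : ℂ) else 0) + 1) := by
    rw [e2]
    simp only [e3]
    rw [← Finset.mul_sum, Finset.sum_comm]
    simp only [e4]
    rw [← Finset.mul_sum]
    field_simp
  have e6 : ∑ i ∈ Finset.range D.m, (if D.act i ψ' = ψ then (1 : ℂ) else 0) =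
      if ∃ i, i < D.m ∧ D.act i ψ' = ψ then 1 else 0 := by
    split_ifs with h
    · obtain ⟨i, hi, hiψ⟩ := h
      rw [Finset.sum_eq_single i]
      · rw [if_pos hiψ]
      · intro j hj hne
        rw [if_neg]
        intro hjψ
        exact hne (D.act_inj hψ' (Finset.mem_range.mp hj) hi (hjψ.trans hiψ.symm))
      · intro hi'
        exact absurd (Finset.mem_range.mpr hi) hi'
    · apply Finset.sum_eq_zero
      intro i hi
      rw [if_neg]
      intro hiψ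
      exact h ⟨i, Finset.mem_range.mp hi, hiψ⟩
  rw [Finset.sum_add_distrib, e6, Finset.sum_const, Finset.card_range, nsmul_eq_mul, mul_one] at e5
  have e7 : ((∑ χ, D.mz ψ χ * D.mz ψ' χ : ℤ) : ℂ) =
      ((D.m + (if ∃ i, i < D.m ∧ D.act i ψ' = ψ then 1 else 0) : ℤ) : ℂ) := by
    push_cast
    rw [e5]
    split_ifs <;> ring
  exact_mod_cast e7

/-- orthogonality to the regular columns -/
theorem reg (e : ι → ℂ) (he : ∀ y, y ≠ 1 → ∑ χ, e χ * conj (D.c χ y) = 0) (ψ : A →* ℂˣ) :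
    ∑ χ, (D.mz ψ χ : ℂ) * e χ = 0 := by
  have e1 : ∀ χ, (D.mz ψ χ : ℂ) * e χ = (Fintype.card A : ℂ)⁻¹ *
      ∑ y, (((ψ y : ℂˣ) : ℂ) - 1) * (e χ * conj (D.c χ y)) := by
    intro χ
    rw [mz_spec', mul_assoc, Finset.sum_mul]
    congr 1
    apply Finset.sum_congr rfl
    intro y _
    ring
  simp only [e1]
  rw [← Finset.mul_sum, Finset.sum_comm]
  have e2 : ∀ y, ∑ χ, (((ψ y : ℂˣ) : ℂ) - 1) * (e χ * conj (D.c χ y)) = 0 := by
    intro y
    rw [← Finset.mul_sum]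
    by_cases hy : y = 1
    · rw [hy]; simp
    · rw [he y hy, mul_zero]
  simp only [e2, Finset.sum_const_zero, mul_zero]

/-- Fourier inversion -/
theorem value [Fintype (A →* ℂˣ)] (χ : ι) {y : A} (hy : y ≠ 1) :
    D.c χ y = ∑ ψ : A →* ℂˣ, (D.mz ψ χ : ℂ) * ((ψ y : ℂˣ) : ℂ) := by
  have hn := card_ne_zero (A := A)
  have e1 : ∑ ψ : A →* ℂˣ, (D.az ψ χ : ℂ) * ((ψ y : ℂˣ) : ℂ) = D.c χ y := by
    have h1 : ∀ ψ : A →* ℂˣ, (D.az ψ χ : ℂ) * ((ψ y : ℂˣ) : ℂ) = (Fintype.card A : ℂ)⁻¹ *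
        ∑ y', D.c χ y' * (((ψ y : ℂˣ) : ℂ) * conj ((ψ y' : ℂˣ) : ℂ)) := by
      intro ψ
      rw [az_spec, mul_assoc, Finset.sum_mul]
      congr 1
      apply Finset.sum_congr rfl
      intro y' _
      ring
    simp only [h1]
    rw [← Finset.mul_sum, Finset.sum_comm]
    simp only [← Finset.mul_sum, sum_dual_mul_conj D.hc]
    simp only [mul_ite, mul_zero]
    rw [Finset.sum_ite_eq Finset.univ y]
    simp only [Finset.mem_univ, if_true]
    field_simp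
  have e2 : ∑ ψ : A →* ℂˣ, (D.mz ψ χ : ℂ) * ((ψ y : ℂˣ) : ℂ) =
      ∑ ψ : A →* ℂˣ, (D.az ψ χ : ℂ) * ((ψ y : ℂˣ) : ℂ) -
        (D.az 1 χ : ℂ) * ∑ ψ : A →* ℂˣ, ((ψ y : ℂˣ) : ℂ) := by
    rw [Finset.mul_sum, ← Finset.sum_sub_distrib]
    apply Finset.sum_congr rfl
    intro ψ _
    unfold mz
    push_cast
    ring
  rw [e2, e1, sum_dual D.hc hy, mul_zero, sub_zero]

end ColData

end Cfsg.Agent.Lib.Helper2.AbCol
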