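import Mathlib
import Cfsg.Prelude.Def_Blocks
import Cfsg.Prelude.Def_Solvable

/-! Abelian Sylow subgroups with `N(P)/C(P)` cyclic and semiregular: group theory. -/

set_option autoImplicit false

namespace Cfsg.Agent.Lib.Helper2.AbSyl

open Subgroup

variable {G : Type*} [Group G] [Finite G] {p : ℕ}

/-- the hypotheses -/
structure Hyp (P : Sylow p G) (m : ℕ) (g : G) : Prop where
  hab : ∀ a b : ↥(P : Subgroup G), a * b = b * a
  hm : 0 < m
  hg : g ∈ normalizer ((P : Subgroup G) : Set G)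
  hgen : centralizer ((P : Subgroup G) : Set G) ⊔ zpowers g = normalizer ((P : Subgroup G) : Set G)
  hCN : (centralizer ((P : Subgroup G) : Set G)).relIndex (normalizer ((P : Subgroup G) : Set G)) = m
  hfrob : ∀ y : G, y ∈ (P : Subgroup G) → y ≠ 1 →
    centralizer ({y} : Set G) ⊓ normalizer ((P : Subgroup G) : Set G) =
      centralizer ((P : Subgroup G) : Set G)

variable {P : Sylow p G} {m : ℕ} {g : G}

namespace Hyp

/-- the automorphism induced by `g` -/
noncomputable def σ (h : Hyp P m g) : MulAut ↥(P : Subgroup G) :=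
  (P : Subgroup G).normalizerMonoidHom ⟨g, h.hg⟩

theorem hom_apply (n : ↥(normalizer ((P : Subgroup G) : Set G))) (y : ↥(P : Subgroup G)) :
    (((P : Subgroup G).normalizerMonoidHom n y : ↥(P : Subgroup G)) : G) = n * y * (n : G)⁻¹ := rfl

theorem σ_pow (h : Hyp P m g) (i : ℕ) :
    h.σ ^ i = (P : Subgroup G).normalizerMonoidHom (⟨g, h.hg⟩ ^ i) := by
  rw [map_pow]; rfl

theorem σ_pow_apply (h : Hyp P m g) (i : ℕ) (y : ↥(P : Subgroup G)) :
    (((h.σ ^ i) y : ↥(P : Subgroup G)) : G) = g ^ i * y * (g ^ i)⁻¹ := by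
  rw [σ_pow, hom_apply]
  rfl

theorem hom_mem_zpowers (h : Hyp P m g) (n : ↥(normalizer ((P : Subgroup G) : Set G))) :
    (P : Subgroup G).normalizerMonoidHom n ∈ zpowers h.σ := by
  set φ := (P : Subgroup G).normalizerMonoidHom with hφ
  set T : Subgroup ↥(normalizer ((P : Subgroup G) : Set G)) := (zpowers h.σ).comap φ with hT
  have hle : normalizer ((P : Subgroup G) : Set G) ≤
      T.map (normalizer ((P : Subgroup G) : Set G)).subtype := by
    have hsup : centralizer ((P : Subgroup G) : Set G) ⊔ zpowers g ≤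
        T.map (normalizer ((P : Subgroup G) : Set G)).subtype := by
      rw [sup_le_iff]
      constructor
      · intro c hc
        have hcN : c ∈ normalizer ((P : Subgroup G) : Set G) := centralizer_le_normalizer _ hc
        refine ⟨⟨c, hcN⟩, ?_, rfl⟩
        have hker : (⟨c, hcN⟩ : ↥(normalizer ((P : Subgroup G) : Set G))) ∈ φ.ker := by
          rw [hφ, normalizerMonoidHom_ker, mem_subgroupOf]
          exact hc
        show φ ⟨c, hcN⟩ ∈ zpowers h.σ
        rw [MonoidHom.mem_ker.mp hker]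
        exact one_mem _
      · rw [zpowers_le]
        exact ⟨⟨g, h.hg⟩, mem_zpowers _, rfl⟩
    intro x hx
    apply hsup
    rw [h.hgen]
    exact hx
  obtain ⟨t, ht, htn⟩ := hle n.2
  have : t = n := Subtype.ext htn
  rw [← this]
  exact ht

theorem orderOf_σ (h : Hyp P m g) : orderOf h.σ = m := by
  set φ := (P : Subgroup G).normalizerMonoidHom with hφ
  have h1 : φ.ker.index = Nat.card φ.range := Subgroup.index_ker φ
  have h2 : φ.range = zpowers h.σ := by
    apply le_antisymm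
    · rintro _ ⟨n, rfl⟩
      exact h.hom_mem_zpowers n
    · rw [zpowers_le]
      exact ⟨⟨g, h.hg⟩, rfl⟩
  rw [h2, Nat.card_zpowers, hφ, normalizerMonoidHom_ker] at h1
  rw [← h1]
  exact h.hCN

theorem exists_pow (h : Hyp P m g) {n : G} (hn : n ∈ normalizer ((P : Subgroup G) : Set G)) :
    ∃ i, i < m ∧ ∀ y : ↥(P : Subgroup G), n * y * n⁻¹ = (((h.σ ^ i) y : ↥(P : Subgroup G)) : G) := by
  obtain ⟨k, hk⟩ := mem_zpowers_iff.mp (h.hom_mem_zpowers ⟨n, hn⟩)
  have hm0 : (0 : ℤ) < m := by exact_mod_cast h.hm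
  refine ⟨(k % m).toNat, ?_, ?_⟩
  · have := Int.emod_lt_of_pos k hm0
    have h0 := Int.emod_nonneg k hm0.ne'
    omega
  · intro y
    have h0 := Int.emod_nonneg k hm0.ne'
    have h1 : h.σ ^ (k % m).toNat = h.σ ^ k := by
      rw [← zpow_natCast, Int.toNat_of_nonneg h0]
      have := zpow_mod_orderOf h.σ k
      rw [h.orderOf_σ] at this
      exact this
    rw [h1, hk, hom_apply]

theorem free (h : Hyp P m g) (i : ℕ) (hi : 0 < i) (hi' : i < m) (y : ↥(P : Subgroup G))
    (hy : (h.σ ^ i) y = y) : y = 1 := by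
  by_contra hne
  have hne' : (y : G) ≠ 1 := fun h0 => hne (Subtype.ext h0)
  have h1 : g ^ i * y * (g ^ i)⁻¹ = y := by
    rw [← h.σ_pow_apply, hy]
  have h2 : g ^ i ∈ centralizer ({(y : G)} : Set G) ⊓ normalizer ((P : Subgroup G) : Set G) := by
    refine mem_inf.mpr ⟨?_, pow_mem h.hg i⟩
    rw [mem_centralizer_singleton_iff]
    exact mul_inv_eq_iff_eq_mul.mp h1
  rw [h.hfrob y y.2 hne'] at h2
  have h3 : h.σ ^ i = 1 := by
    rw [σ_pow]
    apply MonoidHom.mem_ker.mp
    rw [normalizerMonoidHom_ker, mem_subgroupOf]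
    exact h2
  have h4 := orderOf_dvd_of_pow_eq_one h3
  rw [h.orderOf_σ] at h4
  exact absurd (Nat.le_of_dvd hi h4) (by omega)

theorem isConj_iff [Fact p.Prime] (h : Hyp P m g) (y y' : ↥(P : Subgroup G)) :
    IsConj (y : G) (y' : G) ↔ ∃ i, i < m ∧ y' = (h.σ ^ i) y := by
  haveI : IsMulCommutative ↥(P : Subgroup G) := ⟨⟨h.hab⟩⟩
  constructor
  · intro hc
    obtain ⟨c, hc⟩ := _root_.isConj_iff.mp hc
    have h1 : (c⁻¹)⁻¹ * (y : G) * c⁻¹ ∈ P := by
      rw [inv_inv, hc]; exact y'.2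
    obtain ⟨n, hn, hn'⟩ := P.conj_eq_normalizer_conj_of_mem (y : G) c⁻¹ y.2 h1
    rw [inv_inv, hc] at hn'
    obtain ⟨i, hi, hi'⟩ := h.exists_pow (inv_mem hn)
    refine ⟨i, hi, Subtype.ext ?_⟩
    rw [← hi' y, inv_inv, hn']
  · rintro ⟨i, _, rfl⟩
    rw [h.σ_pow_apply]
    exact _root_.isConj_iff.mpr ⟨g ^ i, rfl⟩

end Hyp

end Cfsg.Agent.Lib.Helper2.AbSyl
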