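import Mathlib

set_option autoImplicit false

namespace Cfsg.Agent.Lib.Helper2.CycTI

section action

variable {P X M : Type*} [Group P] [Fintype P] [MulAction P X] [DecidableEq X] [AddCommGroup M]

theorem sum_mem_of_free (J : AddSubgroup M) (Φ : X → M)
    (hJ : ∀ s : X, ∑ u : P, Φ (u • s) ∈ J) :
    ∀ (k : ℕ) (S : Finset X), S.card = k → (∀ s ∈ S, ∀ u : P, u • s ∈ S) →
      (∀ s ∈ S, ∀ u : P, u • s = s → u = 1) → ∑ s ∈ S, Φ s ∈ J := by
  intro k
  induction k using Nat.strong_induction_on with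
  | _ k ih =>
  intro S hS hinv hfree
  rcases S.eq_empty_or_nonempty with h0 | ⟨r, hr⟩
  · rw [h0]; simp
  set O : Finset X := Finset.univ.image (fun u : P => u • r) with hO
  have hOS : O ⊆ S := by
    intro s hs
    obtain ⟨u, _, rfl⟩ := Finset.mem_image.mp hs
    exact hinv r hr u
  have hrO : r ∈ O := Finset.mem_image.mpr ⟨1, Finset.mem_univ _, one_smul _ _⟩
  rw [← Finset.sum_sdiff hOS]
  refine J.add_mem ?_ ?_
  · refine ih (S \ O).card ?_ (S \ O) rfl ?_ ?_
    · rw [← hS]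
      exact Finset.card_lt_card (Finset.sdiff_ssubset hOS ⟨r, hrO⟩)
    · intro s hs u
      rw [Finset.mem_sdiff] at hs ⊢
      refine ⟨hinv s hs.1 u, fun h => hs.2 ?_⟩
      obtain ⟨u', _, hu'⟩ := Finset.mem_image.mp h
      refine Finset.mem_image.mpr ⟨u⁻¹ * u', Finset.mem_univ _, ?_⟩
      show (u⁻¹ * u') • r = s
      rw [mul_smul, hu', inv_smul_smul]
    · intro s hs u hu
      exact hfree s (Finset.mem_sdiff.mp hs).1 u hu
  · rw [hO, Finset.sum_image]
    · exact hJ r
    · intro u _ u' _ h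
      have h1 : (u'⁻¹ * u) • r = r := by
        rw [mul_smul]
        show u'⁻¹ • (u • r) = r
        have h2 : u • r = u' • r := h
        rw [h2, inv_smul_smul]
      have := hfree r hr _ h1
      exact (inv_mul_eq_one.mp this).symm

theorem sum_sub_fixed_mem [Fintype X] (J : AddSubgroup M) (Φ : X → M)
    (hJ : ∀ s : X, ∑ u : P, Φ (u • s) ∈ J)
    (hfree : ∀ s : X, s ∉ MulAction.fixedPoints P X → ∀ u : P, u • s = s → u = 1)
    [DecidablePred (· ∈ MulAction.fixedPoints P X)] :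
    ∑ s : X, Φ s - ∑ s ∈ Finset.univ.filter (· ∈ MulAction.fixedPoints P X), Φ s ∈ J := by
  have h1 : ∑ s : X, Φ s - ∑ s ∈ Finset.univ.filter (· ∈ MulAction.fixedPoints P X), Φ s
      = ∑ s ∈ Finset.univ.filter (fun s => ¬ (s ∈ MulAction.fixedPoints P X)), Φ s := by
    rw [sub_eq_iff_eq_add, add_comm]
    exact (Finset.sum_filter_add_sum_filter_not _ _ _).symm
  rw [h1]
  refine sum_mem_of_free (P := P) J Φ hJ _ _ rfl ?_ ?_
  · intro s hs u
    rw [Finset.mem_filter] at hs ⊢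
    refine ⟨Finset.mem_univ _, fun h => hs.2 ?_⟩
    intro w
    have h2 := h (u * w * u⁻¹)
    rw [mul_smul, mul_smul, inv_smul_smul] at h2
    exact smul_left_cancel u h2
  · intro s hs u hu
    exact hfree s (Finset.mem_filter.mp hs).2 u hu

end action

section conj

variable {G : Type*} [Group G] (y : G)

/-- The conjugate of `y` attached to a coset of its centralizer. -/
noncomputable def kap (s : G ⧸ Subgroup.centralizer ({y} : Set G)) : G :=
  s.out * y * s.out⁻¹

theorem kap_mk (g : G) : kap y (g : G ⧸ Subgroup.centralizer ({y} : Set G)) = g * y * g⁻¹ := by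
  obtain ⟨c, hc⟩ := QuotientGroup.mk_out_eq_mul (Subgroup.centralizer ({y} : Set G)) g
  have hc' : (c : G) * y = y * c := Subgroup.mem_centralizer_singleton_iff.mp c.2
  unfold kap
  rw [hc, mul_inv_rev]
  calc g * ↑c * y * ((c : G)⁻¹ * g⁻¹) = g * (↑c * y) * (c : G)⁻¹ * g⁻¹ := by group
    _ = g * y * g⁻¹ := by rw [hc']; group

theorem kap_smul (h : G) (s : G ⧸ Subgroup.centralizer ({y} : Set G)) :
    kap y (h • s) = h * kap y s * h⁻¹ := by
  induction s using QuotientGroup.induction_on with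
  | H g =>
    rw [MulAction.Quotient.smul_coe, smul_eq_mul, kap_mk, kap_mk]
    group

theorem smul_eq_iff (h : G) (s : G ⧸ Subgroup.centralizer ({y} : Set G)) :
    h • s = s ↔ h * kap y s = kap y s * h := by
  induction s using QuotientGroup.induction_on with
  | H g =>
    rw [MulAction.Quotient.smul_coe, smul_eq_mul, kap_mk, QuotientGroup.eq,
      Subgroup.mem_centralizer_singleton_iff]
    constructor
    · intro h1
      have h2 : g⁻¹ * h⁻¹ * g * y = y * (g⁻¹ * h⁻¹ * g) := by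
        simpa [mul_assoc] using h1
      have h3 : h⁻¹ * (g * y * g⁻¹) = (g * y * g⁻¹) * h⁻¹ := by
        calc h⁻¹ * (g * y * g⁻¹) = g * (g⁻¹ * h⁻¹ * g * y) * g⁻¹ := by group
          _ = g * (y * (g⁻¹ * h⁻¹ * g)) * g⁻¹ := by rw [h2]
          _ = (g * y * g⁻¹) * h⁻¹ := by group
      calc h * (g * y * g⁻¹) = h * ((g * y * g⁻¹) * h⁻¹) * h := by group
        _ = h * (h⁻¹ * (g * y * g⁻¹)) * h := by rw [h3]
        _ = g * y * g⁻¹ * h := by group
    · intro h1
      have h3 : h⁻¹ * (g * y * g⁻¹) = (g * y * g⁻¹) * h⁻¹ := by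
        calc h⁻¹ * (g * y * g⁻¹) = h⁻¹ * ((g * y * g⁻¹) * h) * h⁻¹ := by group
          _ = h⁻¹ * (h * (g * y * g⁻¹)) * h⁻¹ := by rw [h1]
          _ = (g * y * g⁻¹) * h⁻¹ := by group
      calc (h * g)⁻¹ * g * y = g⁻¹ * (h⁻¹ * (g * y * g⁻¹)) * g := by group
        _ = g⁻¹ * ((g * y * g⁻¹) * h⁻¹) * g := by rw [h3]
        _ = y * ((h * g)⁻¹ * g) := by group

theorem orderOf_kap (s : G ⧸ Subgroup.centralizer ({y} : Set G)) :
    orderOf (kap y s) = orderOf y := by
  unfold kap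
  have : s.out * y * s.out⁻¹ = MulAut.conj s.out y := by simp
  rw [this, MulEquiv.orderOf_eq]

end conj

end Cfsg.Agent.Lib.Helper2.CycTI
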