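import Mathlib

/-! Ring automorphisms of `ℂ` acting on roots of unity by a power map. -/

set_option autoImplicit false

namespace Cfsg.Agent.Lib.Helper2.GalAut

open Polynomial

theorem exists_aut_aux (N k : ℕ) [NeZero N] (hk : Nat.Coprime k N) (K : Type) [Field K]
    [NumberField K] [IsCyclotomicExtension {N} ℚ K] :
    ∃ σ : ℂ ≃+* ℂ, ∀ z : ℂ, z ^ N = 1 → σ z = z ^ k := by
  classical
  obtain ⟨φ⟩ : Nonempty (K →+* ℂ) := inferInstance
  let _ : Algebra K ℂ := φ.toAlgebra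
  have hφ : ∀ a : K, algebraMap K ℂ a = φ a := fun a => rfl
  obtain ⟨ι, v, hv⟩ := exists_isTranscendenceBasis' K ℂ
  have _ := IsAlgClosed.isAlgClosure_of_transcendence_basis v hv
  have hζ := IsCyclotomicExtension.zeta_spec N ℚ K
  have hirr : Irreducible (cyclotomic N ℚ) := cyclotomic.irreducible_rat (NeZero.pos N)
  let τ : K ≃ₐ[ℚ] K := IsCyclotomicExtension.fromZetaAut (hζ.pow_of_coprime k hk) hirr
  have hτ : τ (IsCyclotomicExtension.zeta N ℚ K) = (IsCyclotomicExtension.zeta N ℚ K) ^ k :=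
    IsCyclotomicExtension.fromZetaAut_spec (hζ.pow_of_coprime k hk) hirr
  let e : Algebra.adjoin K (Set.range v) ≃+* Algebra.adjoin K (Set.range v) :=
    hv.1.aevalEquiv.symm.toRingEquiv.trans
      ((MvPolynomial.mapEquiv ι τ.toRingEquiv).trans hv.1.aevalEquiv.toRingEquiv)
  have he : ∀ a : K, e (algebraMap K _ a) = algebraMap K _ (τ a) := by
    intro a
    have h1 : hv.1.aevalEquiv.symm (algebraMap K _ a) = MvPolynomial.C a := by
      rw [AlgEquiv.symm_apply_eq]
      exact (AlgEquiv.commutes hv.1.aevalEquiv a).symm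
    show hv.1.aevalEquiv ((MvPolynomial.mapEquiv ι τ.toRingEquiv)
      (hv.1.aevalEquiv.symm (algebraMap K _ a))) = _
    rw [h1]
    have h2 : (MvPolynomial.mapEquiv ι τ.toRingEquiv) (MvPolynomial.C a) =
        MvPolynomial.C (τ a) := by
      simp [MvPolynomial.mapEquiv_apply]
    rw [h2]
    exact AlgEquiv.commutes hv.1.aevalEquiv (τ a)
  let σ : ℂ ≃+* ℂ := IsAlgClosure.equivOfEquiv ℂ ℂ e
  have hσ : ∀ a : K, σ (φ a) = φ (τ a) := by
    intro a
    have h1 : φ a = algebraMap (Algebra.adjoin K (Set.range v)) ℂ (algebraMap K _ a) := rfl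
    have h2 : φ (τ a) = algebraMap (Algebra.adjoin K (Set.range v)) ℂ (algebraMap K _ (τ a)) := rfl
    rw [h1, h2, ← he a]
    exact IsAlgClosure.equivOfEquiv_algebraMap ℂ ℂ e _
  refine ⟨σ, fun z hz => ?_⟩
  have hprim : IsPrimitiveRoot (φ (IsCyclotomicExtension.zeta N ℚ K)) N :=
    hζ.map_of_injective φ.injective
  obtain ⟨i, _, hi⟩ := hprim.eq_pow_of_pow_eq_one hz
  rw [← hi, map_pow, hσ, hτ, map_pow, ← pow_mul, ← pow_mul, mul_comm]

set_option backward.isDefEq.respectTransparency false in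
theorem exists_aut (N k : ℕ) [NeZero N] (hk : Nat.Coprime k N) :
    ∃ σ : ℂ ≃+* ℂ, ∀ z : ℂ, z ^ N = 1 → σ z = z ^ k :=
  exists_aut_aux N k hk (CyclotomicField N ℚ)

end Cfsg.Agent.Lib.Helper2.GalAut
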