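import Mathlib
import Cfsg.Prelude.Def_Characters
import Cfsg.Agent.Lib.Helper2.GalAut
import Cfsg.Agent.Lib.Helper2.CharOps
import Cfsg.Agent.Lib.Helper2.Eigen

/-! Galois conjugates of characters: `g ↦ χ (g ^ k)` for `k` prime to the group order. -/

set_option autoImplicit false

namespace Cfsg.Agent.Lib.Helper2.GalChar

open Cfsg.Agent.Lib.Helper2
open scoped ComplexConjugate

variable {G : Type*} [Group G]

theorem isCharacter_map (σ : ℂ →+* ℂ) {χ : G → ℂ} (hχ : Cfsg.IsCharacter G χ) :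
    Cfsg.IsCharacter G (fun g => σ (χ g)) := by
  classical
  obtain ⟨d, ρ, rfl⟩ := hχ
  let ρ' : Representation ℂ G (Fin d → ℂ) :=
    ((Matrix.toLinAlgEquiv' (R := ℂ) (n := Fin d)).toAlgHom.toMonoidHom).comp
      ((σ.mapMatrix (m := Fin d)).toMonoidHom.comp
        (((LinearMap.toMatrixAlgEquiv' (R := ℂ) (n := Fin d)).toAlgHom.toMonoidHom).comp ρ))
  refine ⟨d, ρ', funext fun g => ?_⟩
  have h1 : ρ' g = Matrix.toLin' ((LinearMap.toMatrix' (ρ g)).map σ) := rfl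
  unfold Representation.character
  rw [h1, LinearMap.trace_eq_matrix_trace ℂ (Pi.basisFun ℂ (Fin d)),
    LinearMap.trace_eq_matrix_trace ℂ (Pi.basisFun ℂ (Fin d)),
    LinearMap.toMatrix_eq_toMatrix', LinearMap.toMatrix'_toLin']
  simp only [Matrix.trace, Matrix.diag, Matrix.map_apply, map_sum]

theorem map_char_eq [Finite G] (σ : ℂ →+* ℂ) (k : ℕ)
    (hσ : ∀ z : ℂ, z ^ Nat.card G = 1 → σ z = z ^ k) {χ : G → ℂ}
    (hχ : Cfsg.IsCharacter G χ) (g : G) : σ (χ g) = χ (g ^ k) := by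
  obtain ⟨d, ρ, rfl⟩ := hχ
  obtain ⟨ζ, hζ, h⟩ := char_zpow_eq_sum ρ g
  have h1 := h 1
  have h2 := h k
  rw [zpow_one] at h1
  rw [zpow_natCast] at h2
  rw [h1, h2, map_sum]
  apply Finset.sum_congr rfl
  intro i _
  rw [zpow_one, zpow_natCast]
  apply hσ
  obtain ⟨m, hm⟩ := orderOf_dvd_natCard g
  rw [hm, pow_mul, hζ i, one_pow]

theorem isCharacter_pow [Finite G] {χ : G → ℂ} (hχ : Cfsg.IsCharacter G χ) (k : ℕ)
    (hk : Nat.Coprime k (Nat.card G)) : Cfsg.IsCharacter G (fun g => χ (g ^ k)) := by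
  haveI : NeZero (Nat.card G) := ⟨Nat.card_pos.ne'⟩
  obtain ⟨σ, hσ⟩ := GalAut.exists_aut (Nat.card G) k hk
  have h1 := isCharacter_map (σ : ℂ →+* ℂ) hχ
  have h2 : (fun g => (σ : ℂ →+* ℂ) (χ g)) = fun g => χ (g ^ k) := by
    funext g
    exact map_char_eq (σ : ℂ →+* ℂ) k hσ hχ g
  rwa [h2] at h1

theorem isIrrCharacter_pow [Finite G] {χ : G → ℂ} (hχ : Cfsg.IsIrrCharacter G χ) (k : ℕ)
    (hk : Nat.Coprime k (Nat.card G)) : Cfsg.IsIrrCharacter G (fun g => χ (g ^ k)) := by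
  classical
  letI := Fintype.ofFinite G
  apply isIrrCharacter_of_classInner_eq_one (isCharacter_pow (IsIrrCharacter.isCharacter hχ) k hk)
  have h1 : Cfsg.classInner χ χ = 1 := by
    rw [classInner_irr hχ hχ, if_pos rfl]
  rw [← h1]
  unfold Cfsg.classInner
  congr 1
  exact Equiv.sum_comp (powCoprime hk.symm) (fun g => χ g * conj (χ g))

end Cfsg.Agent.Lib.Helper2.GalChar
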