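import Mathlib
import Cfsg.Agent.S0243
import Cfsg.Agent.Lib.Helper2.AltEmbed

set_option autoImplicit false

namespace Cfsg.Agent.Lib.Helper2

open scoped LinearAlgebra.Projectivization

/-- `gcd(2,q-1) * |PSL_2(q)| = q (q^2-1)`, in a subtraction-free form. -/
theorem card_PSL2_mul {F : Type*} [Field F] [Fintype F] :
    Nat.gcd 2 (Fintype.card F - 1) * ((Fintype.card F - 1) *
      Nat.card (Matrix.ProjectiveSpecialLinearGroup (Fin 2) F)) =
      (Fintype.card F ^ 2 - 1) * (Fintype.card F ^ 2 - Fintype.card F) := by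
  have := Cfsg.Agent.S0243.result (F := F) rfl 2 le_rfl
  rw [Fin.prod_univ_two] at this
  simpa using this

theorem card_projLine {F : Type*} [Field F] [Fintype F] :
    Nat.card (ℙ F (Fin 2 → F)) = Fintype.card F + 1 := by
  rw [Projectivization.card_of_finrank_two F (Fin 2 → F) (by simp), Nat.card_eq_fintype_card]

/-- If `|PSL_2(q)| = (q+1)!/2` then `PSL_2(q) ≅ A_{q+1}`. -/
theorem PSL2_equiv_alternatingGroup {F : Type*} [Field F] [Fintype F] (n : ℕ)
    (hn : Fintype.card F + 1 = n)
    (hcard : 2 * Nat.card (Matrix.ProjectiveSpecialLinearGroup (Fin 2) F) = n.factorial) :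
    Nonempty (Matrix.ProjectiveSpecialLinearGroup (Fin 2) F ≃* alternatingGroup (Fin n)) := by
  classical
  haveI : Finite (ℙ F (Fin 2 → F)) := Nat.finite_of_card_ne_zero (by rw [card_projLine]; omega)
  cases nonempty_fintype (ℙ F (Fin 2 → F))
  have hP : Fintype.card (ℙ F (Fin 2 → F)) = n := by
    rw [← Nat.card_eq_fintype_card, card_projLine, hn]
  obtain ⟨e⟩ := nonempty_mulEquiv_alternatingGroup_of_injective _
    (Matrix.ProjectiveSpecialLinearGroup.toPermHom_injective (K := F) (ι := Fin 2))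
    (by rw [hP]; exact hcard)
  exact ⟨e.trans (Equiv.altCongrHom (Fintype.equivFinOfCardEq hP))⟩

end Cfsg.Agent.Lib.Helper2
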