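import Mathlib

set_option autoImplicit false

namespace Cfsg.Agent.Lib.Helper2.TINorm

theorem exists_valSubring (p : ℕ) (hp : p.Prime) :
    ∃ A : ValuationSubring ℂ, (p : ℂ) ∈ A.nonunits := by
  let A₀ : Subring ℂ := (Int.castRingHom ℂ).range
  let pp : A₀ := ⟨(p : ℂ), ⟨(p : ℤ), by simp⟩⟩
  have hI : Ideal.span {pp} ≠ ⊤ := by
    intro h
    rw [Ideal.span_singleton_eq_top] at h
    obtain ⟨⟨b, m, hm⟩, hb⟩ := h.exists_right_inv
    have h1 : (p : ℂ) * b = 1 := congrArg Subtype.val hb
    rw [← hm] at h1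
    have h2 : (p : ℤ) * m = 1 := by
      have : (((p : ℤ) * m : ℤ) : ℂ) = ((1 : ℤ) : ℂ) := by
        push_cast
        simpa using h1
      exact_mod_cast this
    have h3 : (p : ℤ) ∣ ((1 : ℕ) : ℤ) := ⟨m, by simpa using h2.symm⟩
    have h4 := Int.natCast_dvd_natCast.mp h3
    exact hp.one_lt.ne' (Nat.dvd_one.mp h4)
  obtain ⟨B, _, hB⟩ := Ideal.image_subset_nonunits_valuationSubring _ hI
  exact ⟨B, hB ⟨pp, Ideal.subset_span rfl, rfl⟩⟩

theorem socle {P M : Type*} [Group P] [Finite P] [AddCommGroup M] (p : ℕ) [Fact p.Prime]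
    (hP : IsPGroup p P) (R : AddSubgroup (P → M))
    (hR : ∀ (y : P) (f : P → M), f ∈ R → (fun x => f (y⁻¹ * x)) ∈ R)
    (hp : ∀ f ∈ R, p • f = 0) (c : P → M) (hc : c ∈ R) (hc0 : c ≠ 0) :
    ∃ t : M, t ≠ 0 ∧ (fun _ => t) ∈ R := by
  classical
  let L : P → (P → M) →+ (P → M) := fun y =>
    { toFun := fun f x => f (y⁻¹ * x), map_zero' := rfl, map_add' := fun _ _ => rfl }
  have hL : ∀ y f x, L y f x = f (y⁻¹ * x) := fun _ _ _ => rfl
  let S : AddSubgroup (P → M) := AddSubgroup.closure (Set.range fun y => L y c)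
  have hSR : S ≤ R := by
    rw [AddSubgroup.closure_le]
    rintro _ ⟨y, rfl⟩
    exact hR y c hc
  have hSL : ∀ y f, f ∈ S → L y f ∈ S := by
    intro y f hf
    have : S ≤ S.comap (L y) := by
      rw [AddSubgroup.closure_le]
      rintro _ ⟨z, rfl⟩
      show L y (L z c) ∈ S
      have : L y (L z c) = L (y * z) c := by
        funext x; simp [hL, mul_assoc]
      rw [this]
      exact AddSubgroup.subset_closure ⟨_, rfl⟩
    exact this hf
  letI : MulAction P S :=
    { smul := fun y f => ⟨L y f.1, hSL y f.1 f.2⟩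
      one_smul := fun f => Subtype.ext (by
        funext x
        show L 1 f.1 x = f.1 x
        simp [hL])
      mul_smul := fun y z f => Subtype.ext (by
        funext x
        show L (y * z) f.1 x = L y (L z f.1) x
        simp [hL, mul_assoc]) }
  have hsm : ∀ (y : P) (f : S), (y • f).1 = L y f.1 := fun _ _ => rfl
  have hfin : Finite S := by
    haveI : AddGroup.FG S := (AddGroup.fg_iff_addSubgroup_fg S).mpr
      ⟨(Set.finite_range fun y => L y c).toFinset, by simp [S]⟩
    apply AddCommGroup.finite_of_fg_torsion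
    intro f
    rw [isOfFinAddOrder_iff_nsmul_eq_zero]
    exact ⟨p, (Fact.out : p.Prime).pos, Subtype.ext (hp f.1 (hSR f.2))⟩
  have hcS : c ∈ S := AddSubgroup.subset_closure ⟨1, by funext x; simp [hL]⟩
  have hdvd : p ∣ Nat.card S := by
    have h1 : addOrderOf (⟨c, hcS⟩ : S) = p :=
      addOrderOf_eq_prime (Subtype.ext (hp c hc)) (fun h => hc0 (congrArg Subtype.val h))
    rw [← h1]
    exact addOrderOf_dvd_natCard _
  obtain ⟨b, hb, hb0⟩ := hP.exists_fixed_point_of_prime_dvd_card_of_fixed_point S hdvd (a := 0)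
    (by intro y; exact Subtype.ext (map_zero (L y)))
  have hconst : ∀ x, b.1 x = b.1 1 := by
    intro x
    have h1 := congrArg (fun f : S => f.1 x) (hb x)
    simp only [hsm, hL, inv_mul_cancel] at h1
    exact h1.symm
  refine ⟨b.1 1, ?_, ?_⟩
  · intro h
    apply hb0
    apply Subtype.ext
    funext x
    rw [hconst, h]
    rfl
  · have : (fun _ => b.1 1) = b.1 := by funext x; exact (hconst x).symm
    rw [this]; exact hSR b.2

end Cfsg.Agent.Lib.Helper2.TINorm
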