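import Mathlib
import Cfsg.Agent.Lib.Helper2.TINorm1

set_option autoImplicit false

namespace Cfsg.Agent.Lib.Helper2.TINorm

theorem val_mul_lt {Γ : Type*} [LinearOrderedCommGroupWithZero Γ] {a b c : Γ}
    (ha : a < 1) (hb : b ≤ c) (hc : c ≠ 0) : a * b < c :=
  calc a * b ≤ a * c := by gcongr
    _ < c := mul_lt_of_lt_one_left (zero_lt_iff.mpr hc) ha

theorem indep {G V : Type*} [Group G] [Finite G] [AddCommGroup V] [Module ℂ V]
    (τ : Representation ℂ G V) (p : ℕ) [Fact p.Prime] (P : Subgroup G) (hP : IsPGroup p P)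
    [Fintype P] (u w : V) (hu : u ≠ 0) (huw : u = - ∑ y : P, τ y w)
    (hw : w ∈ AddSubgroup.closure (Set.range fun g : G => τ g u)) :
    LinearIndependent ℂ (fun y : P => τ y w) := by
  classical
  cases nonempty_fintype G
  obtain ⟨A, hA⟩ := exists_valSubring p Fact.out
  set v := A.valuation with hv
  have hvp : v (p : ℂ) < 1 := (ValuationSubring.mem_nonunits_iff A).mp hA
  rw [Fintype.linearIndependent_iff]
  by_contra hcon
  push_neg at hcon
  obtain ⟨c, hc, y₁, hy₁⟩ := hcon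
  obtain ⟨y₀, _, hy₀⟩ := Finset.exists_max_image Finset.univ (fun y => v (c y))
    ⟨y₁, Finset.mem_univ _⟩
  have hc0 : c y₀ ≠ 0 := by
    intro h
    have h1 := hy₀ y₁ (Finset.mem_univ _)
    simp only [h, map_zero, le_zero_iff, map_eq_zero] at h1
    exact hy₁ h1
  have hv0 : v (c y₀) ≠ 0 := by simpa using hc0
  let 𝔪 : AddSubgroup ℂ := v.ltAddSubgroup 1
  have hm : ∀ z : ℂ, z ∈ 𝔪 ↔ v z < 1 := by
    intro z
    simp [𝔪, Valuation.mem_ltAddSubgroup_iff]
  let π : (P → ℂ) →+ (P → ℂ ⧸ 𝔪) := AddMonoidHom.compLeft (QuotientAddGroup.mk' 𝔪) P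
  have hπ : ∀ f x, π f x = QuotientAddGroup.mk' 𝔪 (f x) := fun _ _ => rfl
  let R₀ : AddSubgroup (P → ℂ) :=
    { carrier := {c' | (∀ x, v (c' x) ≤ 1) ∧ ∑ x : P, c' x • τ x w = 0}
      zero_mem' := ⟨fun x => by simp, by simp⟩
      add_mem' := by
        rintro a b ⟨ha1, ha2⟩ ⟨hb1, hb2⟩
        refine ⟨fun x => (v.map_add _ _).trans (max_le (ha1 x) (hb1 x)), ?_⟩
        simp only [Pi.add_apply, add_smul, Finset.sum_add_distrib, ha2, hb2, add_zero]
      neg_mem' := by
        rintro a ⟨ha1, ha2⟩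
        refine ⟨fun x => by simpa using ha1 x, ?_⟩
        simp only [Pi.neg_apply, neg_smul, Finset.sum_neg_distrib, ha2, neg_zero] }
  have hR₀ : ∀ c', c' ∈ R₀ ↔ (∀ x, v (c' x) ≤ 1) ∧ ∑ x : P, c' x • τ x w = 0 := fun _ => Iff.rfl
  obtain ⟨tb, htb, c', hc', hct⟩ := socle p hP (R₀.map π)
    (by
      rintro y _ ⟨f, hf, rfl⟩
      refine ⟨fun x => f (y⁻¹ * x), ?_, rfl⟩
      obtain ⟨hf1, hf2⟩ := (hR₀ f).mp hf
      refine (hR₀ _).mpr ⟨fun x => hf1 _, ?_⟩
      have h1 : ∑ x : P, f (y⁻¹ * x) • τ x w = τ y (∑ x : P, f x • τ x w) := by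
        rw [map_sum]
        refine Fintype.sum_equiv (Equiv.mulLeft y⁻¹) _ _ fun x => ?_
        rw [map_smul, ← Module.End.mul_apply, ← map_mul]
        simp
      rw [h1, hf2, map_zero])
    (by
      rintro _ ⟨f, hf, rfl⟩
      obtain ⟨hf1, hf2⟩ := (hR₀ f).mp hf
      funext x
      rw [Pi.smul_apply, hπ, ← map_nsmul, Pi.zero_apply, QuotientAddGroup.mk'_apply,
        QuotientAddGroup.eq_zero_iff, hm, nsmul_eq_mul, map_mul]
      exact val_mul_lt hvp (hf1 x) one_ne_zero)
    (π fun x => c x / c y₀)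
    (by
      refine ⟨_, (hR₀ _).mpr ⟨fun x => ?_, ?_⟩, rfl⟩
      · rw [map_div₀]
        exact div_le_one_of_le₀ (hy₀ x (Finset.mem_univ _)) zero_le'
      · have h1 : ∑ x : P, (c x / c y₀) • τ x w = (c y₀)⁻¹ • ∑ x : P, c x • τ x w := by
          rw [Finset.smul_sum]
          refine Finset.sum_congr rfl fun x _ => ?_
          rw [smul_smul, div_eq_inv_mul]
        rw [h1, hc, smul_zero])
    (by
      intro h
      have h1 := congrFun h y₀
      rw [hπ, div_self hc0, Pi.zero_apply, QuotientAddGroup.mk'_apply,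
        QuotientAddGroup.eq_zero_iff, hm, map_one] at h1
      exact lt_irrefl _ h1)
  obtain ⟨hc1, hc2⟩ := (hR₀ c').mp hc'
  set t := c' 1 with ht
  have htv : v t = 1 := by
    refine le_antisymm (hc1 1) (not_lt.mp fun h => htb ?_)
    have h1 := congrFun hct 1
    rw [hπ, QuotientAddGroup.mk'_apply] at h1
    rw [← h1, QuotientAddGroup.eq_zero_iff, hm]
    exact h
  have heps : ∀ x, v (c' x - t) < 1 := by
    intro x
    have h1 := congrFun hct 1
    have h2 := congrFun hct x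
    rw [hπ, QuotientAddGroup.mk'_apply] at h1 h2
    have h3 : ((t : ℂ) : ℂ ⧸ 𝔪) = ((c' x : ℂ) : ℂ ⧸ 𝔪) := h1.trans h2.symm
    rw [QuotientAddGroup.eq, hm] at h3
    rwa [neg_add_eq_sub] at h3
  -- the functional
  obtain ⟨φ, hφ⟩ : ∃ φ : Module.Dual ℂ V, φ u ≠ 0 := by
    by_contra h
    push_neg at h
    exact hu ((Module.forall_dual_apply_eq_zero_iff ℂ u).mp h)
  obtain ⟨g₀, _, hg₀⟩ := Finset.exists_max_image Finset.univ (fun g : G => v (φ (τ g u)))
    ⟨1, Finset.mem_univ _⟩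
  set a := φ (τ g₀ u) with ha
  have hva : v a ≠ 0 := by
    intro h
    have h1 := hg₀ 1 (Finset.mem_univ _)
    simp only [h, le_zero_iff, map_eq_zero, map_one, Module.End.one_apply] at h1
    exact hφ h1
  let K : AddSubgroup V :=
    { carrier := {z | ∀ g : G, v (φ (τ g z)) ≤ v a}
      zero_mem' := fun g => by simp
      add_mem' := by
        intro x y hx hy g
        rw [map_add, map_add]
        exact (v.map_add _ _).trans (max_le (hx g) (hy g))
      neg_mem' := by
        intro x hx g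
        rw [map_neg, map_neg, Valuation.map_neg]
        exact hx g }
  have hwK : w ∈ K := by
    have : AddSubgroup.closure (Set.range fun g : G => τ g u) ≤ K := by
      rw [AddSubgroup.closure_le]
      rintro _ ⟨g, rfl⟩ g'
      rw [← Module.End.mul_apply, ← map_mul]
      exact hg₀ _ (Finset.mem_univ _)
    exact this hw
  have hkey : t • u = ∑ x : P, (c' x - t) • τ x w := by
    simp only [sub_smul, Finset.sum_sub_distrib, hc2, zero_sub]
    rw [huw, smul_neg, Finset.smul_sum]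
  have hkey2 : t * a = ∑ x : P, (c' x - t) * φ (τ (g₀ * x) w) := by
    have h1 := congrArg (fun z => φ (τ g₀ z)) hkey
    simp only [map_smul, map_sum, smul_eq_mul] at h1
    rw [h1]
    refine Finset.sum_congr rfl fun x _ => ?_
    rw [map_mul, Module.End.mul_apply]
  have h1 : v (t * a) < v a := by
    rw [hkey2]
    refine Valuation.map_sum_lt v hva fun x _ => ?_
    rw [map_mul]
    exact val_mul_lt (heps x) (hwK _) hva
  rw [map_mul, htv, one_mul] at h1
  exact lt_irrefl _ h1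

end Cfsg.Agent.Lib.Helper2.TINorm
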