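import Mathlib
import Cfsg.Agent.Lib.Helper2.Isolated
import Cfsg.Agent.Lib.Helper2.Inflation
import Cfsg.Agent.Lib.Helper2.CycTI2

set_option autoImplicit false

namespace Cfsg.Agent.Lib.Helper2.TINorm

open Cfsg.Agent.Lib.Helper2
open scoped Pointwise

theorem ti_fix {G : Type*} [Group G] [Finite G] (p : ℕ) [Fact p.Prime] (P : Sylow p G)
    (hTI : ∀ g : G, g ∉ Subgroup.normalizer ((P : Subgroup G) : Set G) →
      (P : Subgroup G) ⊓ (MulAut.conj g • (P : Subgroup G)) = ⊥)
    (H : Subgroup G) (hH : Subgroup.normalizer ((P : Subgroup G) : Set G) ≤ H) :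
    ∀ y ∈ (P : Subgroup G), y ≠ 1 → ∀ x : G, x⁻¹ * y * x ∈ H → x ∈ H := by
  intro y hy hy1 x hx
  have hPH : (P : Subgroup G) ≤ H := Subgroup.le_normalizer.trans hH
  have hK : IsPGroup p ((MulAut.conj x⁻¹ • (P : Subgroup G)).subgroupOf H) :=
    (P.2.map (MulAut.conj x⁻¹).toMonoidHom).comap_of_injective H.subtype H.subtype_injective
  obtain ⟨c, hc⟩ := exists_conj_mem_sylow (P.subtype hPH) hK
  have h1 := hc ⟨x⁻¹ * y * x, hx⟩ (by
    rw [Subgroup.mem_subgroupOf]
    show x⁻¹ * y * x ∈ MulAut.conj x⁻¹ • (P : Subgroup G)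
    refine ⟨y, hy, ?_⟩
    simp [MulAut.conj_apply])
  have h2 : (c : G) * (x⁻¹ * y * x) * (c : G)⁻¹ ∈ (P : Subgroup G) := h1
  by_contra hxH
  have hg : x * (c : G)⁻¹ ∉ Subgroup.normalizer ((P : Subgroup G) : Set G) := by
    intro h
    have := H.mul_mem (hH h) c.2
    apply hxH
    simpa using this
  have h3 := hTI _ hg
  have h4 : y ∈ (P : Subgroup G) ⊓ (MulAut.conj (x * (c : G)⁻¹) • (P : Subgroup G)) := by
    refine ⟨hy, ⟨_, h2, ?_⟩⟩
    simp only [MulEquiv.coe_toMonoidHom, MulAut.conj_apply, MulDistribMulAction.toMonoidEnd_apply,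
      MulDistribMulAction.toMonoidHom_apply, MulAut.smul_def]
    group
  rw [h3] at h4
  exact hy1 (Subgroup.mem_bot.mp h4)

theorem exists_w {G V : Type*} [Group G] [Fintype G] [AddCommGroup V] [Module ℂ V]
    (τ : Representation ℂ G V) (P H : Subgroup G) [Fintype P]
    (hPH : P ≤ H)
    (hfix : ∀ y ∈ P, y ≠ 1 → ∀ x : G, x⁻¹ * y * x ∈ H → x ∈ H)
    (u : V) (huH : ∀ h ∈ H, τ h u = u) (hsum : ∑ g : G, τ g u = 0) :
    ∃ w ∈ AddSubgroup.closure (Set.range fun g : G => τ g u), u = - ∑ y : P, τ y w := by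
  classical
  set C := AddSubgroup.closure (Set.range fun g : G => τ g u) with hC
  have huC : u ∈ C := AddSubgroup.subset_closure ⟨1, by simp⟩
  by_cases hP1 : ∀ y ∈ P, y = 1
  · refine ⟨-u, C.neg_mem huC, ?_⟩
    have : ∑ y : P, τ y (-u) = -u := by
      rw [Fintype.sum_eq_single (1 : P)]
      · simp
      · intro y hy
        exact absurd (Subtype.ext (hP1 y y.2)) hy
    rw [this, neg_neg]
  push Not at hP1
  obtain ⟨y₀, hy₀, hy₀1⟩ := hP1
  let Φ : G ⧸ H → V := fun q => τ q.out u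
  have hΦ : ∀ g : G, Φ (g : G ⧸ H) = τ g u := by
    intro g
    obtain ⟨c, hc⟩ := QuotientGroup.mk_out_eq_mul H g
    show τ (g : G ⧸ H).out u = τ g u
    rw [hc, map_mul, Module.End.mul_apply, huH c c.2]
  let NP : V →+ V := (∑ y : P, τ y : V →ₗ[ℂ] V).toAddMonoidHom
  have hNP : ∀ z, NP z = ∑ y : P, τ y z := by
    intro z
    show (∑ y : P, τ y : V →ₗ[ℂ] V) z = _
    rw [LinearMap.sum_apply]
  have hstab : ∀ (y : P) (g : G), y • (g : G ⧸ H) = (g : G ⧸ H) → y ≠ 1 → g ∈ H := by
    intro y g h hy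
    have h1 : (((y : G) * g : G) : G ⧸ H) = (g : G ⧸ H) := h
    rw [eq_comm, QuotientGroup.eq] at h1
    refine hfix y y.2 (fun h => hy (Subtype.ext h)) g ?_
    simpa [mul_assoc] using h1
  have hone : ((1 : G) : G ⧸ H) ∈ MulAction.fixedPoints P (G ⧸ H) := by
    intro y
    show (((y : G) * 1 : G) : G ⧸ H) = ((1 : G) : G ⧸ H)
    rw [QuotientGroup.eq]
    simpa using hPH y.2
  have hmain := CycTI.sum_sub_fixed_mem (P := P) (X := G ⧸ H) (C.map NP) Φ
    (by
      intro s
      induction s using QuotientGroup.induction_on with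
      | H g =>
        refine ⟨τ g u, AddSubgroup.subset_closure ⟨g, rfl⟩, ?_⟩
        rw [hNP]
        refine Finset.sum_congr rfl fun y _ => ?_
        have : y • (g : G ⧸ H) = (((y : G) * g : G) : G ⧸ H) := rfl
        rw [this, hΦ, map_mul, Module.End.mul_apply])
    (by
      intro s hs y hy
      induction s using QuotientGroup.induction_on with
      | H g =>
        by_contra hy1
        have hg := hstab y g hy hy1
        apply hs
        have : (g : G ⧸ H) = ((1 : G) : G ⧸ H) := by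
          rw [QuotientGroup.eq]
          simpa using hg
        rw [this]
        exact hone)
  have hfilt : Finset.univ.filter (· ∈ MulAction.fixedPoints P (G ⧸ H)) = {((1 : G) : G ⧸ H)} := by
    ext s
    simp only [Finset.mem_filter, Finset.mem_univ, true_and, Finset.mem_singleton]
    constructor
    · intro hs
      induction s using QuotientGroup.induction_on with
      | H g =>
        have hg := hstab ⟨y₀, hy₀⟩ g (hs _) (fun h => hy₀1 (congrArg Subtype.val h))
        rw [QuotientGroup.eq]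
        simpa using hg
    · rintro rfl
      exact hone
  have hX : ∑ s : G ⧸ H, Φ s = 0 := by
    have h1 := sum_comp_mk H Φ
    simp_rw [hΦ] at h1
    rw [hsum] at h1
    have h2 : (Nat.card H : ℂ) • ∑ s : G ⧸ H, Φ s = 0 := by
      rw [Nat.cast_smul_eq_nsmul]
      exact h1.symm
    rcases smul_eq_zero.mp h2 with h3 | h3
    · exact absurd h3 (by exact_mod_cast (Nat.card_pos (α := H)).ne')
    · exact h3
  rw [hfilt, Finset.sum_singleton, hX, hΦ, map_one, Module.End.one_apply, zero_sub] at hmain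
  obtain ⟨w, hw, hwu⟩ := hmain
  refine ⟨w, hw, ?_⟩
  rw [← hNP, hwu, neg_neg]

end Cfsg.Agent.Lib.Helper2.TINorm
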