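import Mathlib
import Cfsg.Agent.Lib.Helper2.TINorm2
import Cfsg.Agent.Lib.Helper2.TINorm3

set_option autoImplicit false

namespace Cfsg.Agent.Lib.Helper2.TINorm

open Cfsg.Agent.Lib.Helper2 Module
open scoped Pointwise

theorem invariant_of_H {G W : Type*} [Group G] [Fintype G] [AddCommGroup W] [Module ℂ W]
    [FiniteDimensional ℂ W] (ρ : Representation ℂ G W) (p : ℕ) [Fact p.Prime] (P : Sylow p G)
    (hTI : ∀ g : G, g ∉ Subgroup.normalizer ((P : Subgroup G) : Set G) →
      (P : Subgroup G) ⊓ (MulAut.conj g • (P : Subgroup G)) = ⊥)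
    (H : Subgroup G) (hH : Subgroup.normalizer ((P : Subgroup G) : Set G) ≤ H)
    (hdeg : finrank ℂ W ^ 2 ≤ Nat.card (P : Subgroup G))
    (T : W →ₗ[ℂ] W) (hT : ∀ h ∈ H, T ∘ₗ ρ h = ρ h ∘ₗ T) : ∀ g, T ∘ₗ ρ g = ρ g ∘ₗ T := by
  classical
  have _ : Fintype (P : Subgroup G) := Fintype.ofFinite _
  set τ := Representation.linHom ρ ρ with hτ
  have hτa : ∀ g f, τ g f = ρ g ∘ₗ f ∘ₗ ρ g⁻¹ := fun g f => Representation.linHom_apply ρ ρ g f
  have hinv : ∀ g, ρ g ∘ₗ ρ g⁻¹ = LinearMap.id := by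
    intro g
    rw [← Module.End.mul_eq_comp, ← map_mul, mul_inv_cancel, map_one]
    rfl
  have hinv' : ∀ g, ρ g⁻¹ ∘ₗ ρ g = LinearMap.id := by
    intro g
    rw [← Module.End.mul_eq_comp, ← map_mul, inv_mul_cancel, map_one]
    rfl
  have hfixiff : ∀ g f, τ g f = f ↔ f ∘ₗ ρ g = ρ g ∘ₗ f := by
    intro g f
    rw [hτa]
    constructor
    · intro h
      calc f ∘ₗ ρ g = (ρ g ∘ₗ f ∘ₗ ρ g⁻¹) ∘ₗ ρ g := by rw [h]
        _ = ρ g ∘ₗ f ∘ₗ (ρ g⁻¹ ∘ₗ ρ g) := by simp only [LinearMap.comp_assoc]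
        _ = ρ g ∘ₗ f := by rw [hinv', LinearMap.comp_id]
    · intro h
      calc ρ g ∘ₗ f ∘ₗ ρ g⁻¹ = (ρ g ∘ₗ f) ∘ₗ ρ g⁻¹ := by simp only [LinearMap.comp_assoc]
        _ = f ∘ₗ (ρ g ∘ₗ ρ g⁻¹) := by rw [← h, LinearMap.comp_assoc]
        _ = f := by rw [hinv, LinearMap.comp_id]
  set S := ∑ g : G, τ g T with hS
  have hSinv : ∀ x, τ x S = S := by
    intro x
    rw [hS, map_sum]
    refine Fintype.sum_equiv (Equiv.mulLeft x) _ _ fun g => ?_
    rw [← Module.End.mul_apply, ← map_mul]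
    rfl
  set u := (Fintype.card G : ℂ) • T - S with hu
  have htr : ∀ g z, LinearMap.trace ℂ W (τ g z) = LinearMap.trace ℂ W z := by
    intro g z
    rw [hτa, ← Module.End.mul_eq_comp, LinearMap.trace_mul_comm, Module.End.mul_eq_comp,
      LinearMap.comp_assoc, hinv', LinearMap.comp_id]
  have hu0 : u = 0 := by
    by_contra hune
    have huH : ∀ h ∈ H, τ h u = u := by
      intro h hh
      rw [hu, map_sub, map_smul, hSinv, (hfixiff h T).mpr (hT h hh)]
    have hsum : ∑ g : G, τ g u = 0 := by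
      simp only [hu, map_sub, map_smul, hSinv, Finset.sum_sub_distrib, ← Finset.smul_sum]
      rw [← hS, Finset.sum_const, Finset.card_univ, ← Nat.cast_smul_eq_nsmul ℂ, sub_self]
    have hutr : LinearMap.trace ℂ W u = 0 := by
      rw [hu, map_sub, map_smul, hS, map_sum]
      simp only [htr, Finset.sum_const, Finset.card_univ, nsmul_eq_mul, smul_eq_mul, sub_self]
    obtain ⟨w, hw, huw⟩ := exists_w τ (P : Subgroup G) H (Subgroup.le_normalizer.trans hH)
      (ti_fix p P hTI H hH) u huH hsum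
    have hind := indep τ p (P : Subgroup G) P.2 u w hune huw hw
    have hwtr : LinearMap.trace ℂ W w = 0 := by
      have : AddSubgroup.closure (Set.range fun g : G => τ g u)
          ≤ (LinearMap.ker (LinearMap.trace ℂ W)).toAddSubgroup := by
        rw [AddSubgroup.closure_le]
        rintro _ ⟨g, rfl⟩
        show LinearMap.trace ℂ W (τ g u) = 0
        rw [htr, hutr]
      exact this hw
    have hind2 : LinearIndependent ℂ (fun y : (P : Subgroup G) =>
        (⟨τ y w, by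
          show LinearMap.trace ℂ W (τ y w) = 0
          rw [htr, hwtr]⟩ : LinearMap.ker (LinearMap.trace ℂ W))) :=
      LinearIndependent.of_comp (LinearMap.ker (LinearMap.trace ℂ W)).subtype hind
    have h1 := hind2.fintype_card_le_finrank
    rw [← Nat.card_eq_fintype_card] at h1
    have h2 := LinearMap.finrank_range_add_finrank_ker (LinearMap.trace ℂ W)
    have h3 : finrank ℂ (W →ₗ[ℂ] W) = finrank ℂ W ^ 2 := by
      rw [Module.finrank_linearMap, pow_two]
    have h4 : finrank ℂ (LinearMap.range (LinearMap.trace ℂ W)) = 0 := by omega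
    have h5 : LinearMap.range (LinearMap.trace ℂ W) = ⊥ := Submodule.finrank_eq_zero.mp h4
    have h6 : LinearMap.trace ℂ W 1 = 0 := by
      have : LinearMap.trace ℂ W 1 ∈ LinearMap.range (LinearMap.trace ℂ W) := ⟨1, rfl⟩
      rw [h5] at this
      exact this
    rw [LinearMap.trace_one] at h6
    have h7 : finrank ℂ W = 0 := by exact_mod_cast h6
    have h8 : 0 < Nat.card (P : Subgroup G) := Nat.card_pos
    rw [h7] at h3
    omega
  intro g
  rw [← hfixiff]
  have hT' : T = (Fintype.card G : ℂ)⁻¹ • S := by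
    have h1 : (Fintype.card G : ℂ) • T = S := sub_eq_zero.mp hu0
    rw [← h1, smul_smul, inv_mul_cancel₀ (by exact_mod_cast Fintype.card_ne_zero), one_smul]
  rw [hT', map_smul, hSinv]

end Cfsg.Agent.Lib.Helper2.TINorm
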